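import Mathlib
import Cfsg.Agent.H648.HeightForm
import Cfsg.Agent.H644.CentralQuot
import Cfsg.Agent.S0908
import Cfsg.Agent.S4733
import Cfsg.Agent.Blocks.Knorr

/-!
# The canonical character of a block with central defect group
-/

set_option autoImplicit false

open Cfsg Cfsg.Agent.Blocks.Basic Cfsg.Agent.Blocks.Local Module

namespace Cfsg.Agent.H648.Canonical

open Cfsg.Agent.H644.CentralQuot

variable {C : Type*} [Group C] [Finite C] {p : ℕ} [Fact p.Prime] {M : Ideal AlgInt}

/-- A block with central defect group `U` has exactly one character which is trivial on `U`, and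
this is a character of defect zero of the quotient. -/
theorem exists_canonical (hM : IsPModular p M) (U : Subgroup C) (hU : U ≤ Subgroup.center C)
    {b : Set (IrrCharacter C)} (hb : IsPBlock M b) (hD : IsDefectGroup p M b U) :
    ∃ θ ∈ b, (∀ u ∈ U, (θ : C → ℂ) u = (θ : C → ℂ) 1) ∧
      p ^ (U.index).factorization p ∣ charDegree (θ : C → ℂ) ∧
      ∀ θ' ∈ b, (∀ u ∈ U, (θ' : C → ℂ) u = (θ' : C → ℂ) 1) → θ' = θ := by
  classical
  have hp : p.Prime := Fact.out
  have := Fintype.ofFinite C
  have := Fintype.ofFinite U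
  have hUn : U.Normal := ⟨fun n hn g => by
    have := Subgroup.mem_center_iff.1 (hU hn) g
    rw [this, mul_assoc, mul_inv_cancel, mul_one]
    exact hn⟩
  have hcard := S0908.result p M hM b hb U hD
  have h1 := blockDefect_defl hM hU hcard hb
  have h2 : blockDefect p (defl U b) = 0 := by omega
  have h3 : IsPBlock M (defl U b) :=
    isPBlock_defl hM hU (IsPGroup.of_card hcard) hb
  have h4 := (S4733.result p M hM _ h3).2.1.1 h2
  obtain ⟨θ, hθ⟩ := exists_mem_defl hM (IsPGroup.of_card hcard) hb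
  have h5 := HeightForm.defect_add (p := p) (defl U b) hθ
  refine ⟨infl U θ, hθ, ?_, ?_, ?_⟩
  · intro u hu
    rw [infl_apply, infl_one]
    have h6 : (QuotientGroup.mk u : C ⧸ U) = 1 := (QuotientGroup.eq_one_iff u).2 hu
    rw [h6]
  · rw [charDegree_infl]
    rw [h2] at h5
    have h6 : Nat.card (C ⧸ U) = U.index := rfl
    rw [h6] at h5
    refine (pow_dvd_pow p ?_).trans (Nat.ordProj_dvd _ _)
    omega
  · intro θ' hθ' htriv
    have hsum : ∑ u : U, (θ' : C → ℂ) u ≠ 0 := by
      have h7 : ∀ u : U, (θ' : C → ℂ) u = (θ' : C → ℂ) 1 := fun u => htriv u u.2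
      simp only [h7]
      rw [Finset.sum_const, nsmul_eq_mul]
      refine mul_ne_zero ?_ (Cfsg.Agent.Characters.Core.isIrr_apply_one_ne_zero θ'.2)
      rw [Finset.card_univ]
      exact_mod_cast Fintype.card_pos.ne'
    obtain ⟨ψ, hψ⟩ := Cfsg.Agent.Blocks.Deflate.exists_deflation U (θ' : C → ℂ) θ'.2 hsum
    have h8 : infl U ψ = θ' := Subtype.ext hψ.symm
    have h9 : ψ ∈ defl U b := by rw [mem_defl, h8]; exact hθ'
    have h10 : Subsingleton (defl U b) := (Nat.card_eq_one_iff_unique.1 h4.1).1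
    have h11 : (⟨ψ, h9⟩ : defl U b) = ⟨θ, hθ⟩ := Subsingleton.elim _ _
    have h12 : ψ = θ := congrArg Subtype.val h11
    rw [← h8, h12]

end Cfsg.Agent.H648.Canonical
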