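import Mathlib
import Cfsg.Agent.H648.NormStab
import Cfsg.Agent.H648.HarrisKnorr
import Cfsg.Agent.H625.FongRank
import Cfsg.Agent.S4435
import Cfsg.Agent.S4436
import Cfsg.Agent.S4438
import Cfsg.Agent.S4648
import Cfsg.Agent.S4733

/-!
# Blocks with a normal elementary abelian defect group and at most three characters
-/

set_option autoImplicit false
set_option linter.unusedSectionVars false

open Cfsg

namespace Cfsg.Agent.H648.NormAb

open Cfsg.Agent.H644 Cfsg.Agent.Blocks.Local
open Cfsg.Agent.H648.Dict Cfsg.Agent.H648.GoodCount Cfsg.Agent.H622.Star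
open Cfsg.Agent.H591.Reynolds (IsStab)
open Cfsg.Agent.OddOrderCharacters.PF9.CliffGen (resTo resTo_apply down)
open Cfsg.Agent.Blocks.Covering (conjIrr conjIrr_apply conjIrr_conjIrr conjIrr_one sameBlock_conjIrr)
open Cfsg.Agent.Blocks.Basic (isPBlock_nonempty isPBlock_sameBlock isPGroup_of_isDefectGroup
  isPBlock_eq_of_mem isPBlock_blockOf mem_blockOf_self isPBlock_mem_of_sameBlock)

universe u

variable {X : Type u} [Group X] [Finite X] {p : ℕ} [Fact p.Prime] {M : Ideal AlgInt}

/-- The stabilizer of a block of a normal subgroup. -/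
theorem exists_isStab [M.IsPrime] (C : Subgroup X) [C.Normal] {b : Set (IrrCharacter C)}
    (hb : IsPBlock M b) : ∃ T : Subgroup X, IsStab b T := by
  have key : ∀ g : X, (∃ θ ∈ b, conjIrr C g θ ∈ b) → ∀ θ ∈ b, conjIrr C g θ ∈ b := by
    rintro g ⟨θ₀, h1, h2⟩ θ hθ
    exact isPBlock_mem_of_sameBlock hb h2 (sameBlock_conjIrr C g (isPBlock_sameBlock hb h1 hθ))
  let T : Subgroup X :=
    { carrier := {g | ∀ θ ∈ b, conjIrr C g θ ∈ b}
      one_mem' := fun θ hθ => by rw [conjIrr_one]; exact hθ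
      mul_mem' := fun {g h} hg hh θ hθ => by
        rw [← conjIrr_conjIrr]
        exact hh _ (hg _ hθ)
      inv_mem' := fun {g} hg => by
        obtain ⟨θ, hθ⟩ := isPBlock_nonempty hb
        refine key g⁻¹ ⟨_, hg θ hθ, ?_⟩
        rw [conjIrr_conjIrr, mul_inv_cancel, conjIrr_one]
        exact hθ }
  refine ⟨T, fun g => ?_⟩
  constructor
  · intro hg θ hθ θ' h
    have h1 : θ' = conjIrr C g θ := by
      apply Subtype.ext
      funext n
      rw [h, conjIrr_apply]
      congr 1
    rw [h1]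
    exact hg θ hθ
  · intro h θ hθ
    refine h θ hθ _ fun n => ?_
    rw [conjIrr_apply]
    congr 1

/-- The only defect group is a normal one. -/
theorem eq_of_isDefectGroup (hM : IsPModular p M) {B : Set (IrrCharacter X)} (hB : IsPBlock M B)
    {V P : Subgroup X} [V.Normal] (hV : IsDefectGroup p M B V) (hP : IsDefectGroup p M B P) :
    P = V := by
  have := isPrime_of_isPModular hM
  obtain ⟨x, rfl⟩ := HarrisKnorr.exists_conj_of_isDefectGroup hM hB hV hP
  ext g
  rw [Subgroup.mem_map]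
  constructor
  · rintro ⟨v, hv, rfl⟩
    exact (inferInstance : V.Normal).conj_mem v hv x
  · intro hg
    refine ⟨x⁻¹ * g * x, ?_, ?_⟩
    · have := (inferInstance : V.Normal).conj_mem g hg x⁻¹
      simpa using this
    · change x * (x⁻¹ * g * x) * x⁻¹ = g
      group

/-- The case `k(B) ≤ l(B) + 1 ≤ 3`. -/
theorem card_le_three_aux (hM : IsPModular p M) (V : Subgroup X) [V.Normal]
    (hcomm : ∀ v ∈ V, ∀ w ∈ V, v * w = w * v)
    (hexp : ∀ v ∈ V, v ^ p = 1) (hV1 : V ≠ ⊥)
    {B : Set (IrrCharacter X)} (hB : IsPBlock M B) (hBD : IsDefectGroup p M B V)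
    (hl : blockRank p B ≤ 2) (hk : Nat.card B ≤ blockRank p B + 1) :
    Nat.card V ≤ 3 := by
  classical
  have hp : M.IsPrime := isPrime_of_isPModular hM
  have := Fintype.ofFinite X
  let C : Subgroup X := Subgroup.centralizer (V : Set X)
  have hCn : C.Normal := Subgroup.normal_centralizer
  have := Fintype.ofFinite C
  have hVC : V ≤ C := fun v hv => Subgroup.mem_centralizer_iff.2 fun w hw => hcomm w hw v hv
  obtain ⟨χ, hχ⟩ := isPBlock_nonempty hB
  obtain ⟨θ₀, hθ₀⟩ := Cfsg.Agent.Blocks.Fong.exists_constituent C χ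
  let b : Set (IrrCharacter C) := blockOf M (θ₀ : C → ℂ)
  have hb : IsPBlock M b := isPBlock_blockOf θ₀
  have hcov : Covers C B b := ⟨χ, hχ, θ₀, mem_blockOf_self θ₀, hθ₀⟩
  -- the defect group of `b`
  have hbD : IsDefectGroup p M b (V.subgroupOf C) := by
    obtain ⟨Q, hQ⟩ := Dict.exists_isDefectGroup hM hb
    have hQ' : (Q.map C.subtype).subgroupOf C = Q :=
      Subgroup.comap_map_eq_self_of_injective (Subgroup.subtype_injective C) _
    obtain ⟨P, hP, hPQ⟩ := Cfsg.Agent.S4438.result p M hM C b hb (Q.map C.subtype)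
      (Subgroup.map_subtype_le Q) (by rw [hQ']; exact hQ) B hB hcov
    rw [eq_of_isDefectGroup hM hB hBD hP, inf_eq_left.2 hVC] at hPQ
    rw [hPQ, hQ']
    exact hQ
  -- the stabilizer
  obtain ⟨T, hT⟩ := exists_isStab C hb
  have hCT : C ≤ T := hT.le hb
  have hVT : V ≤ T := hVC.trans hCT
  have := Fintype.ofFinite T
  have := Fintype.ofFinite (C.subgroupOf T)
  have : (C.subgroupOf T).Normal := Subgroup.normal_subgroupOf
  have : (V.subgroupOf T).Normal := Subgroup.normal_subgroupOf
  obtain ⟨B', hB', ⟨ψ, hψ, θ, hθ, h0⟩, hind⟩ :=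
    (Cfsg.Agent.S4435.result p M hM C b hb T hT hCT).2.2 B hB hcov
  have h0' : Cfsg.classInner (resTo hCT (ψ : T → ℂ)) (θ : C → ℂ) ≠ 0 := h0
  have hcard := Cfsg.Agent.H625.FongRank.card_eq p hM hb hT hCT hB' hψ hθ h0' hind
  have hrank := Cfsg.Agent.H625.FongRank.rank_eq p hM hb hT hCT hB' hψ hθ h0' hind
  -- the defect group of `B'`
  have hB'D : IsDefectGroup p M B' (V.subgroupOf T) := by
    obtain ⟨D, hD⟩ := Dict.exists_isDefectGroup hM hB'
    have h1 := (Cfsg.Agent.S4436.result p M hM C b hb T hT hCT B' hB' ⟨ψ, hψ, θ, hθ, h0⟩ B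
      hind).1 D hD
    have h2 := eq_of_isDefectGroup hM hB hBD h1
    have h3 : (D.map T.subtype).subgroupOf T = D :=
      Subgroup.comap_map_eq_self_of_injective (Subgroup.subtype_injective T) _
    rw [← h2, h3]
    exact hD
  let e := (Subgroup.subgroupOfEquivOfLe hCT).symm
  have hcardV : Nat.card (V.subgroupOf T) = Nat.card V :=
    Nat.card_congr (Subgroup.subgroupOfEquivOfLe hVT).toEquiv
  rw [← hcardV]
  refine NormStab.card_le_three (V.subgroupOf T) (C.subgroupOf T) hM ?_ (fun t ht => hVC ht)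
    ?_ ?_ (b := Cfsg.Agent.H649.blkMap e b) (Cfsg.Agent.H649.isPBlock_blkMap hb) ?_ ?_ hB' hB'D
    ?_ (hrank ▸ hl) (by rw [← hrank, ← hcard]; exact hk)
  · ext t
    rw [Subgroup.mem_subgroupOf, Subgroup.mem_centralizer_iff]
    constructor
    · intro h
      exact Subgroup.mem_centralizer_iff.2 fun v hv =>
        congrArg Subtype.val (h ⟨v, hVT hv⟩ hv)
    · intro h v hv
      apply Subtype.ext
      exact (Subgroup.mem_centralizer_iff.1 h) v hv
  · intro v hv
    apply Subtype.ext
    exact hexp v hv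
  · intro h
    apply hV1
    rw [← Subgroup.card_eq_one, ← hcardV, h, Subgroup.card_bot]
  · have h1 : (V.subgroupOf T).subgroupOf (C.subgroupOf T) =
        (V.subgroupOf C).map e.toMonoidHom := by
      ext n
      constructor
      · intro hn
        exact ⟨⟨((n : T) : X), n.2⟩, hn, rfl⟩
      · rintro ⟨m, hm, rfl⟩
        exact hm
    rw [h1]
    exact Cfsg.Agent.H649.isDefectGroup_blkMap hbD
  · intro t
    constructor
    · intro _ η hη η' h
      rw [Cfsg.Agent.H649.mem_blkMap] at hη ⊢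
      have h2 := (hT (t : X)).1 t.2 _ hη (Cfsg.Agent.H649.irrMap e.symm η')
      refine h2 fun n => ?_
      exact h (e n)
    · intro _
      exact Subgroup.mem_top t
  · refine ⟨ψ, hψ, Cfsg.Agent.H649.irrMap e θ, Cfsg.Agent.H649.irrMap_mem_blkMap.2 hθ, ?_⟩
    have h1 := Cfsg.Agent.H591.Cliff.classInner_down_res hCT (ψ : T → ℂ) (θ : C → ℂ)
    have h2 : classInner (fun n : C.subgroupOf T => (ψ : T → ℂ) n)
        (Cfsg.Agent.H649.irrMap e θ : C.subgroupOf T → ℂ) =
        classInner (resTo hCT (ψ : T → ℂ)) (θ : C → ℂ) := h1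
    rw [h2]
    exact h0'

/-- **Blocks with a normal elementary abelian defect group and at most three characters.** -/
theorem card_le_three (hM : IsPModular p M) (V : Subgroup X) [V.Normal]
    (hcomm : ∀ v ∈ V, ∀ w ∈ V, v * w = w * v)
    (hexp : ∀ v ∈ V, v ^ p = 1) (hV1 : V ≠ ⊥)
    {B : Set (IrrCharacter X)} (hB : IsPBlock M B) (hBD : IsDefectGroup p M B V)
    (hk : Nat.card B ≤ 3) : Nat.card V ≤ 3 := by
  have hprime : M.IsPrime := isPrime_of_isPModular hM
  obtain ⟨h1, h2, h3⟩ := Cfsg.Agent.S4733.result p M hM B hB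
  have h4 := Cfsg.Agent.S0908.result p M hM B hB V hBD
  have h5 : blockDefect p B ≠ 0 := by
    intro h
    rw [h, pow_zero, Subgroup.card_eq_one] at h4
    exact hV1 h4
  have h6 : Nat.card B ≠ blockRank p B := fun h => h5 (h3.2 h)
  have h7 := SecOne.blockRank_pos (p := p) hB
  have h8 : blockRank p B ≤ 2 := by omega
  rcases Nat.lt_or_ge (blockRank p B) 2 with h9 | h9
  · have h10 : blockRank p B = 1 := by omega
    rw [(Cfsg.Agent.S4648.result p M hM B hB V hBD hV1 h10 (by omega)).2.1]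
    exact hk
  · exact card_le_three_aux hM V hcomm hexp hV1 hB hBD h8 (by omega)

end Cfsg.Agent.H648.NormAb
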